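/-
The subgroup generated by the root subgroup of the highest root and one of its conjugates: it is conjugate into `U`, or
to the subgroup generated by the root subgroups of the highest root and of its negative.
-/
import Cfsg.Agent.Lib.ChevAut.Form
import Cfsg.Agent.Lib.Chev.Canon

set_option autoImplicit false

namespace Cfsg.Agent.Lib.Chev

open Cfsg.Lie

section

variable {F : Type*} [Field F] {D : ChevalleyDatum} {T : Tbl}

lemma map_conj_mul {G : Type*} [Group G] (K : Subgroup G) (a b : G) :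
    K.map (MulAut.conj (a * b)).toMonoidHom = (K.map (MulAut.conj b).toMonoidHom).map (MulAut.conj a).toMonoidHom := by
  rw [Subgroup.map_map]
  congr 1
  ext x
  simp [mul_assoc]

lemma map_conj_inv_map {G : Type*} [Group G] (K : Subgroup G) (a : G) :
    (K.map (MulAut.conj a).toMonoidHom).map (MulAut.conj a⁻¹).toMonoidHom = K := by
  rw [← map_conj_mul, inv_mul_cancel]
  ext x
  simp

namespace Tbl.Good2

variable (hG : T.Good2 D)
include hG

/-- Conjugation of a root subgroup by a monomial word. -/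
lemma map_conj_root_nProd {l : List ℕ} (hl : ∀ i ∈ l, i < D.rank) {r : ℕ} (hr : r < D.nroots) :
    (D.rootSubgroup F r).map (MulAut.conj (hG.nProd (F := F) l)).toMonoidHom = D.rootSubgroup F (wperm T l r) := by
  obtain ⟨c, hc, e⟩ := hG.nProd_conj_x (F := F) hl hr
  have hc0 : c ≠ 0 := by
    rcases hc with rfl | rfl
    · exact one_ne_zero
    · exact neg_ne_zero.2 one_ne_zero
  ext g
  constructor
  · rintro ⟨x, hx, rfl⟩
    obtain ⟨t, rfl⟩ := hG.rootSubgroup_mem hr hx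
    show hG.nProd l * hG.xU hr t * (hG.nProd l)⁻¹ ∈ _
    rw [e]
    exact hG.xU_mem_root _ _
  · intro hg
    obtain ⟨t, rfl⟩ := hG.rootSubgroup_mem (hG.wperm_lt hl hr) hg
    refine ⟨hG.xU hr (c⁻¹ * t), hG.xU_mem_root _ _, ?_⟩
    show hG.nProd l * hG.xU hr (c⁻¹ * t) * (hG.nProd l)⁻¹ = _
    rw [e, mul_inv_cancel_left₀ hc0]

/-- Conjugation of a root subgroup by an element of `H`. -/
lemma map_conj_root_H {h : GL D.Idx F} (hh : h ∈ D.diagonalSubgroup F) {r : ℕ} (hr : r < D.nroots) :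
    (D.rootSubgroup F r).map (MulAut.conj h).toMonoidHom = D.rootSubgroup F r := by
  obtain ⟨c, hc0, e⟩ := hG.H_conj_x hh hr
  ext g
  constructor
  · rintro ⟨x, hx, rfl⟩
    obtain ⟨t, rfl⟩ := hG.rootSubgroup_mem hr hx
    show h * hG.xU hr t * h⁻¹ ∈ _
    rw [e]
    exact hG.xU_mem_root _ _
  · intro hg
    obtain ⟨t, rfl⟩ := hG.rootSubgroup_mem hr hg
    refine ⟨hG.xU hr (c⁻¹ * t), hG.xU_mem_root _ _, ?_⟩
    show h * hG.xU hr (c⁻¹ * t) * h⁻¹ = _
    rw [e, mul_inv_cancel_left₀ hc0]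

lemma xU_comm_of_nil {r s : ℕ} (hr : r < D.nroots) (hs : s < D.nroots) (h1 : s ≠ r) (h2 : s ≠ D.neg r)
    (h : D.commTerms r s = []) (t u : F) : hG.xU hs u * hG.xU hr t = hG.xU hr t * hG.xU hs u := by
  have e := hG.xT_comm_of_nil hr hs h1 h2 h t u
  rw [hG.xT_of_lt hr, hG.xT_of_lt hs] at e
  exact congrArg Subtype.val e

/-- The root subgroup of a root commuting with the positive roots is centralised by `U`. -/
lemma U_comm_top {r : ℕ} (hr : r < D.nroots) (hp : D.nroots / 2 ≤ r)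
    (htop : ∀ s, s < D.nroots → D.nroots / 2 ≤ s → s ≠ r → D.commTerms r s = []) {u : GL D.Idx F}
    (hu : u ∈ D.posUnipotent F) (t : F) : u * hG.xU hr t * u⁻¹ = hG.xU hr t := by
  induction hu using Subgroup.closure_induction with
  | mem x hx =>
    obtain ⟨s, a, hs, hx⟩ := hx
    have hs' : s < D.nroots := hs.1
    have hs2 : D.nroots / 2 ≤ s := (hG.isPos_iff hs').1 hs
    have e : x = hG.xU hs' a := hG.eq_xU hs' hx
    subst e
    by_cases hsr : s = r
    · subst hsr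
      rw [mul_assoc, hG.xU_inv, hG.xU_mul, hG.xU_mul]
      congr 1
      ring
    · have h3 : s ≠ D.neg r := by
        intro e
        have := hG.neg_add hr
        have h4 := hG.even_n
        omega
      rw [hG.xU_comm_of_nil hr hs' hsr h3 (htop s hs' hs2 hsr) t a]
      group
  | one => simp
  | mul a b _ _ ha hb =>
    have e : a * b * hG.xU hr t * (a * b)⁻¹ = a * (b * hG.xU hr t * b⁻¹) * a⁻¹ := by group
    rw [e, hb, ha]
  | inv a _ ha =>
    have e : a⁻¹ * hG.xU hr t * a⁻¹⁻¹ = a⁻¹ * (a * hG.xU hr t * a⁻¹) * a := by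
      rw [ha]
      group
    rw [e]
    group

lemma map_conj_root_B {r : ℕ} (hr : r < D.nroots) (hp : D.nroots / 2 ≤ r)
    (htop : ∀ s, s < D.nroots → D.nroots / 2 ≤ s → s ≠ r → D.commTerms r s = []) {b : GL D.Idx F}
    (hb : b ∈ D.borelSubgroup F) :
    (D.rootSubgroup F r).map (MulAut.conj b).toMonoidHom = D.rootSubgroup F r := by
  obtain ⟨u, hu, k, hk, rfl⟩ := hG.mem_borel hb
  rw [map_conj_mul, hG.map_conj_root_H hk hr]
  ext g
  constructor
  · rintro ⟨x, hx, rfl⟩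
    obtain ⟨t, rfl⟩ := hG.rootSubgroup_mem hr hx
    show u * hG.xU hr t * u⁻¹ ∈ _
    rw [hG.U_comm_top hr hp htop hu]
    exact hG.xU_mem_root _ _
  · intro hg
    obtain ⟨t, rfl⟩ := hG.rootSubgroup_mem hr hg
    exact ⟨hG.xU hr t, hG.xU_mem_root _ _, hG.U_comm_top hr hp htop hu t⟩

lemma root_le_U {r : ℕ} (hr : r < D.nroots) (hp : D.nroots / 2 ≤ r) : D.rootSubgroup F r ≤ D.posUnipotent F := by
  refine (Subgroup.closure_le _).2 ?_
  rintro g ⟨t, hg⟩
  exact Subgroup.subset_closure ⟨r, t, (hG.isPos_iff hr).2 hp, hg⟩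

/-- The dichotomy. -/
theorem root_pair {r : ℕ} (hr : r < D.nroots) (hp : D.nroots / 2 ≤ r)
    (htop : ∀ s, s < D.nroots → D.nroots / 2 ≤ s → s ≠ r → D.commTerms r s = [])
    (hw : ∀ s, s < D.nroots → s ≠ D.neg r → ∃ l : List ℕ, (∀ i ∈ l, i < D.rank) ∧
      D.nroots / 2 ≤ wperm T l r ∧ D.nroots / 2 ≤ wperm T l s)
    {g : GL D.Idx F} (hg : g ∈ D.group F) :
    (∃ h ∈ D.group F, (D.rootSubgroup F r ⊔ (D.rootSubgroup F r).map (MulAut.conj g).toMonoidHom).map
        (MulAut.conj h).toMonoidHom ≤ D.posUnipotent F) ∨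
    ∃ h ∈ D.group F, (D.rootSubgroup F r ⊔ (D.rootSubgroup F r).map (MulAut.conj g).toMonoidHom).map
        (MulAut.conj h).toMonoidHom = D.rootSubgroup F r ⊔ D.rootSubgroup F (D.neg r) := by
  obtain ⟨n, hn, b, hb, b', hb', rfl⟩ := hG.bruhat_exists hg
  obtain ⟨h0, hh0, l, hl, rfl⟩ := hG.N_form hn
  have hs := hG.wperm_lt hl hr
  have e1 : (D.rootSubgroup F r).map (MulAut.conj (b * (h0 * hG.nProd l) * b')).toMonoidHom =
      (D.rootSubgroup F (wperm T l r)).map (MulAut.conj b).toMonoidHom := by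
    rw [map_conj_mul, hG.map_conj_root_B hr hp htop hb', map_conj_mul, map_conj_mul, hG.map_conj_root_nProd hl hr,
      hG.map_conj_root_H hh0 hs]
  have e2 : (D.rootSubgroup F r ⊔ (D.rootSubgroup F r).map (MulAut.conj (b * (h0 * hG.nProd l) * b')).toMonoidHom).map
      (MulAut.conj b⁻¹).toMonoidHom = D.rootSubgroup F r ⊔ D.rootSubgroup F (wperm T l r) := by
    rw [e1, Subgroup.map_sup, map_conj_inv_map]
    congr 1
    have h3 := map_conj_inv_map (D.rootSubgroup F r) b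
    rw [hG.map_conj_root_B hr hp htop hb] at h3
    exact h3
  have hbG : b⁻¹ ∈ D.group F := Subgroup.inv_mem _ (hG.B_le_group hb)
  by_cases hsn : wperm T l r = D.neg r
  · right
    refine ⟨b⁻¹, hbG, ?_⟩
    rw [e2, hsn]
  · left
    obtain ⟨l', hl', h1, h2⟩ := hw _ hs hsn
    refine ⟨hG.nProd l' * b⁻¹, Subgroup.mul_mem _ (hG.N_le_group (hG.nProd_mem_N hl')) hbG, ?_⟩
    rw [map_conj_mul, e2, Subgroup.map_sup, hG.map_conj_root_nProd hl' hr, hG.map_conj_root_nProd hl' hs]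
    exact sup_le (hG.root_le_U (hG.wperm_lt hl' hr) h1) (hG.root_le_U (hG.wperm_lt hl' hs) h2)

/-- The statement with `U` a `p`-group. -/
theorem root_pair_p [Fintype F] {p : ℕ} [Fact p.Prime] [CharP F p] {r : ℕ} (hr : r < D.nroots)
    (hp : D.nroots / 2 ≤ r)
    (htop : ∀ s, s < D.nroots → D.nroots / 2 ≤ s → s ≠ r → D.commTerms r s = [])
    (hw : ∀ s, s < D.nroots → s ≠ D.neg r → ∃ l : List ℕ, (∀ i ∈ l, i < D.rank) ∧
      D.nroots / 2 ≤ wperm T l r ∧ D.nroots / 2 ≤ wperm T l s)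
    {g : GL D.Idx F} (hg : g ∈ D.group F) :
    IsPGroup p ↥(D.rootSubgroup F r ⊔ (D.rootSubgroup F r).map (MulAut.conj g).toMonoidHom) ∨
    ∃ h ∈ D.group F, (D.rootSubgroup F r ⊔ (D.rootSubgroup F r).map (MulAut.conj g).toMonoidHom).map
        (MulAut.conj h).toMonoidHom = D.rootSubgroup F r ⊔ D.rootSubgroup F (D.neg r) := by
  rcases hG.root_pair hr hp htop hw hg with ⟨h, -, hle⟩ | h
  · left
    obtain ⟨f, -, hf⟩ := FiniteField.card F p
    have hU : IsPGroup p ↥(D.posUnipotent F) := by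
      apply IsPGroup.of_card (n := f * (D.nroots / 2))
      rw [hG.card_U, Nat.card_eq_fintype_card, hf, pow_mul]
    have h1 := hU.to_le hle
    exact h1.of_equiv (Subgroup.equivMapOfInjective _ _ (MulAut.conj h).injective).symm
  · exact Or.inr h

end Tbl.Good2

end

end Cfsg.Agent.Lib.Chev
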